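import Cfsg.Agent.J2SylShape96.Model

/-!
Facts about the model group, certified by finite checks.
-/

set_option autoImplicit false
set_option maxRecDepth 100000

namespace CfsgLib.J2SylShape96

/-- the central involution -/
def zm : Tm := el 16

/-- a singular element -/
def ee : Tm := el 5

/-- another singular element -/
def qq : Tm := el 9

/-- an element of order four -/
def rr : Tm := el 1

/-- code test for `1, zm` -/
def nzB (x : ℕ) : Bool := x == 0 || x == 16

/-- code test for `1, zm, ee, ee * zm` -/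
def z3B (x : ℕ) : Bool := x == 0 || x == 16 || x == 5 || x == 21

/-- code test for the kernel of the linear functional -/
def psiB (x : ℕ) : Bool := x &&& 8 == 0

/-- code test for commuting -/
def commB (a b : ℕ) : Bool := tmul a b == tmul b a

theorem v_zm : v zm = 16 := v_el (by norm_num)
theorem v_ee : v ee = 5 := v_el (by norm_num)
theorem v_qq : v qq = 9 := v_el (by norm_num)
theorem v_rr : v rr = 1 := v_el (by norm_num)

theorem eq_one_iff {t : Tm} : t = 1 ↔ v t = 0 :=
  ⟨fun h => h ▸ v_one, fun h => v_inj (h.trans v_one.symm)⟩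

theorem eq_zm_iff {t : Tm} : t = zm ↔ v t = 16 :=
  ⟨fun h => h ▸ v_zm, fun h => v_inj (h.trans v_zm.symm)⟩

theorem v_ee_zm : v (ee * zm) = 21 := by decide +kernel

theorem nzB_iff {t : Tm} : nzB (v t) = true ↔ t = 1 ∨ t = zm := by
  simp only [nzB, Bool.or_eq_true, beq_iff_eq, eq_one_iff, eq_zm_iff]

/-- The four central-modulo-`zm` elements. -/
def InZ3 (t : Tm) : Prop := t = 1 ∨ t = zm ∨ t = ee ∨ t = ee * zm

theorem z3B_iff {t : Tm} : z3B (v t) = true ↔ InZ3 t := by
  simp only [InZ3, z3B, Bool.or_eq_true, beq_iff_eq, eq_one_iff, eq_zm_iff, or_assoc]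
  constructor
  · rintro (h | h | h | h)
    exacts [Or.inl h, Or.inr (Or.inl h), Or.inr (Or.inr (Or.inl (v_inj (h.trans v_ee.symm)))),
      Or.inr (Or.inr (Or.inr (v_inj (h.trans v_ee_zm.symm))))]
  · rintro (h | h | h | h)
    exacts [Or.inl h, Or.inr (Or.inl h), Or.inr (Or.inr (Or.inl (h ▸ v_ee))),
      Or.inr (Or.inr (Or.inr (h ▸ v_ee_zm)))]

theorem commB_iff {s t : Tm} : commB (v s) (v t) = true ↔ s * t = t * s := by
  rw [commB, beq_iff_eq, ← v_mul, ← v_mul]
  exact ⟨v_inj, congrArg v⟩

/-! ### Constants -/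

theorem const_facts :
    qq * qq = 1 ∧ qq * ee * qq⁻¹ = ee * zm ∧ qq ≠ 1 ∧ qq ≠ zm ∧ rr * rr = zm ∧ rr * qq = qq * rr ∧
      rr * ee = ee * rr ∧ ee * ee = 1 ∧ zm * zm = 1 ∧ zm ≠ 1 ∧ ee ≠ 1 ∧ ee ≠ zm ∧
      qq ≠ ee ∧ qq ≠ ee * zm ∧ qq * (ee * zm) * qq⁻¹ = ee := by
  decide +kernel

/-! ### Centres -/

/-- centre and centre modulo `zm` -/
def centerOK : Bool :=
  forBelow (fun a => (forBelow (fun b => commB a b) 128 == nzB a) &&
    (!(forBelow (fun b => tconj b a == a || tconj b a == tmul a 16) 128) || z3B a) &&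
    (!(forBelow (fun b => commB a b) 32) || nzB a)) 128

theorem center_ok : centerOK = true := by decide +kernel

theorem center_iff {t : Tm} : (∀ s, t * s = s * t) ↔ t = 1 ∨ t = zm := by
  have h := center_ok
  simp only [centerOK, forBelow_iff, Bool.and_eq_true, beq_iff_eq] at h
  rw [← nzB_iff, ← (h _ (v_lt t)).1.1, forBelow_iff]
  refine ⟨fun hc b hb => ?_, fun hc s => commB_iff.1 (hc _ (v_lt s))⟩
  rw [← v_el hb]
  exact commB_iff.2 (hc _)

theorem zm_comm (s : Tm) : zm * s = s * zm := center_iff.2 (Or.inr rfl) s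

theorem v_mul_zm (t : Tm) : v (t * zm) = tmul (v t) 16 := by rw [v_mul, v_zm]

theorem centerMod {t : Tm} (hc : ∀ s, s * t * s⁻¹ = t ∨ s * t * s⁻¹ = t * zm) : InZ3 t := by
  have h := center_ok
  simp only [centerOK, forBelow_iff, Bool.and_eq_true, Bool.or_eq_true, Bool.not_eq_true',
    Bool.eq_false_iff, ne_eq, beq_iff_eq] at h
  refine z3B_iff.1 ((h _ (v_lt t)).1.2.resolve_left (not_not.2 fun b hb => ?_))
  rw [← v_el hb, ← v_conj, ← v_mul_zm]
  exact (hc (el b)).imp (congrArg v) (congrArg v)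

theorem centralizer_low {t : Tm} (hc : ∀ s, v s < 32 → t * s = s * t) : t = 1 ∨ t = zm := by
  have h := center_ok
  simp only [centerOK, forBelow_iff, Bool.and_eq_true, Bool.or_eq_true, Bool.not_eq_true',
    Bool.eq_false_iff, ne_eq] at h
  refine nzB_iff.1 ((h _ (v_lt t)).2.resolve_left (not_not.2 fun b hb => ?_))
  rw [← v_el (show b < 128 by omega)]
  exact commB_iff.2 (hc _ (by rw [v_el (by omega)]; exact hb))

/-! ### The extraspecial subgroup -/

/-- closure, normality, squares and commutators -/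
def lowOK : Bool :=
  forBelow (fun a => forBelow (fun b => decide (tmul a b < 32) &&
      (tconj a b == b || tconj a b == tmul b 16)) 32 &&
    decide (tinv a < 32) && nzB (tmul a a)) 32 &&
  forBelow (fun t => forBelow (fun b => decide (tconj t b < 32)) 32 &&
    (tconj t 5 == 5 || tconj t 5 == 21)) 128

theorem low_ok : lowOK = true := by decide +kernel

/-- The extraspecial subgroup of order 32. -/
def Qm : Subgroup Tm where
  carrier := {t | v t < 32}
  one_mem' := by show v 1 < 32; rw [v_one]; norm_num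
  mul_mem' := fun {a b} ha hb => by
    show v (a * b) < 32
    have h := low_ok
    simp only [lowOK, Bool.and_eq_true, forBelow_iff, decide_eq_true_eq] at h
    rw [v_mul]
    exact ((h.1 _ ha).1.1 _ hb).1
  inv_mem' := fun {a} ha => by
    show v a⁻¹ < 32
    have h := low_ok
    simp only [lowOK, Bool.and_eq_true, forBelow_iff, decide_eq_true_eq] at h
    rw [v_inv]
    exact (h.1 _ ha).1.2

theorem mem_Qm {t : Tm} : t ∈ Qm ↔ v t < 32 := Iff.rfl

theorem card_Qm : Nat.card Qm = 32 := by
  rw [← Nat.card_fin 32]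
  exact (Nat.card_congr
    { toFun := fun i => ⟨el i, show v (el i) < 32 by rw [v_el (n := i) (by have := i.2; omega)]; exact i.2⟩
      invFun := fun t => ⟨v t.1, t.2⟩
      left_inv := fun i => Fin.ext (v_el (n := (i : ℕ)) (by have := i.2; omega))
      right_inv := fun t => Subtype.ext (el_v t.1) }).symm

theorem conj_mem_Qm (t : Tm) {x : Tm} (hx : x ∈ Qm) : t * x * t⁻¹ ∈ Qm := by
  have h := low_ok
  simp only [lowOK, Bool.and_eq_true, forBelow_iff, decide_eq_true_eq] at h
  rw [mem_Qm, v_conj]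
  exact (h.2 _ (v_lt t)).1 _ hx

theorem conj_Qm {a b : Tm} (ha : a ∈ Qm) (hb : b ∈ Qm) : a * b * a⁻¹ = b ∨ a * b * a⁻¹ = b * zm := by
  have h := low_ok
  simp only [lowOK, Bool.and_eq_true, forBelow_iff, Bool.or_eq_true, beq_iff_eq] at h
  refine ((h.1 _ ha).1.1 _ hb).2.imp (fun e => v_inj ?_) (fun e => v_inj ?_)
  · rw [v_conj, e]
  · rw [v_conj, e, v_mul_zm]

theorem sq_Qm {a : Tm} (ha : a ∈ Qm) : a * a = 1 ∨ a * a = zm := by
  have h := low_ok
  simp only [lowOK, Bool.and_eq_true, forBelow_iff] at h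
  exact nzB_iff.1 (by rw [v_mul]; exact (h.1 _ ha).2)

theorem conj_ee (t : Tm) : t * ee * t⁻¹ = ee ∨ t * ee * t⁻¹ = ee * zm := by
  have h := low_ok
  simp only [lowOK, Bool.and_eq_true, forBelow_iff, Bool.or_eq_true, beq_iff_eq] at h
  exact (h.2 _ (v_lt t)).2.imp (fun e => v_inj (by rw [v_conj, v_ee, e]))
    (fun e => v_inj (by rw [v_conj, v_ee, e, v_ee_zm]))

theorem zm_mem_Qm : zm ∈ Qm := by rw [mem_Qm, v_zm]; norm_num
theorem ee_mem_Qm : ee ∈ Qm := by rw [mem_Qm, v_ee]; norm_num
theorem qq_mem_Qm : qq ∈ Qm := by rw [mem_Qm, v_qq]; norm_num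
theorem rr_mem_Qm : rr ∈ Qm := by rw [mem_Qm, v_rr]; norm_num

/-- an element outside is compatible with fewer than 32 elements -/
def compatOK : Bool :=
  forBelow (fun x => decide (x < 32) || !(nzB (tmul x x)) ||
    decide (((List.range 128).filter fun y => nzB (tmul y y) &&
      (tconj x y == y || tconj x y == tmul y 16) && nzB (tmul (tmul x y) (tmul x y))).length < 32)) 128

theorem compat_ok : compatOK = true := by decide +kernel

theorem Qm_unique {M : Subgroup Tm} (hM : Nat.card M = 32)
    (hsq : ∀ x ∈ M, x * x = 1 ∨ x * x = zm)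
    (hcomm : ∀ x ∈ M, ∀ y ∈ M, x * y * x⁻¹ = y ∨ x * y * x⁻¹ = y * zm) : M = Qm := by
  refine Subgroup.eq_of_le_of_card_ge (fun x hx => ?_) (by rw [hM, card_Qm])
  by_contra hxQ
  have h := compat_ok
  simp only [compatOK, forBelow_iff, Bool.or_eq_true, decide_eq_true_eq, Bool.not_eq_true',
    Bool.eq_false_iff, ne_eq] at h
  have hlt := (h _ (v_lt x)).resolve_left (not_or.2 ⟨hxQ, not_not.2 (by
    rw [← v_mul]; exact nzB_iff.2 (hsq x hx))⟩)
  set L := (List.range 128).filter fun y => nzB (tmul y y) &&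
      (tconj (v x) y == y || tconj (v x) y == tmul y 16) && nzB (tmul (tmul (v x) y) (tmul (v x) y))
  have hmem : ∀ y : M, v y.1 ∈ L := fun y => by
    simp only [L, List.mem_filter, List.mem_range, Bool.and_eq_true, Bool.or_eq_true, beq_iff_eq]
    refine ⟨v_lt _, ⟨?_, ?_⟩, ?_⟩
    · rw [← v_mul]; exact nzB_iff.2 (hsq _ y.2)
    · rw [← v_conj, ← v_mul_zm]; exact (hcomm x hx _ y.2).imp (congrArg v) (congrArg v)
    · rw [← v_mul, ← v_mul]; exact nzB_iff.2 (hsq _ (mul_mem hx y.2))
  have hle : Nat.card M ≤ L.toFinset.card := by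
    rw [← Nat.card_eq_finsetCard]
    exact Nat.card_le_card_of_injective
      (fun y : M => (⟨v y.1, List.mem_toFinset.2 (hmem y)⟩ : {a // a ∈ L.toFinset}))
      fun a b e => Subtype.ext (v_inj (congrArg Subtype.val e))
  have := L.toFinset_card_le
  omega

/-! ### The linear functional -/

/-- the functional is additive, and its kernel is the centralizer of `ee` -/
def psiOK : Bool :=
  forBelow (fun a => forBelow (fun b => psiB (tmul a b) == (psiB a == psiB b)) 128 &&
    (commB a 5 == psiB a)) 128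

theorem psi_ok : psiOK = true := by decide +kernel

/-- The homomorphism to the group of order two with kernel the centralizer of `ee`. -/
def psi : Tm →* Multiplicative (ZMod 2) where
  toFun t := bif psiB (v t) then 1 else Multiplicative.ofAdd 1
  map_one' := by rw [v_one]; rfl
  map_mul' a b := by
    have h := psi_ok
    simp only [psiOK, Bool.and_eq_true, forBelow_iff, beq_iff_eq] at h
    rw [v_mul, (h _ (v_lt a)).1 _ (v_lt b)]
    cases psiB (v a) <;> cases psiB (v b) <;> decide

theorem psi_eq_one {t : Tm} : psi t = 1 ↔ t * ee = ee * t := by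
  have h := psi_ok
  simp only [psiOK, Bool.and_eq_true, forBelow_iff, beq_iff_eq] at h
  rw [← commB_iff, v_ee, (h _ (v_lt t)).2]
  show (bif psiB (v t) then (1 : Multiplicative (ZMod 2)) else Multiplicative.ofAdd 1) = 1 ↔ _
  cases psiB (v t) <;> simp

/-! ### Involutions and squares -/

/-- involutions in the kernel; squares of elements of the centralizer and of exponent four -/
def squareOK : Bool :=
  forBelow (fun u => (!(tmul u u == 0 && psiB u) || z3B u ||
      forBelow (fun r => !(commB u r) || tmul r r == 0) 128) &&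
    (!(commB u 5) || z3B (tmul u u)) &&
    (!(tmul (tmul u u) (tmul u u) == 0) || z3B (tmul u u))) 128

theorem square_ok : squareOK = true := by decide +kernel

theorem sq_of_comm_ee {t : Tm} (h : t * ee = ee * t) : InZ3 (t * t) := by
  have hok := square_ok
  simp only [squareOK, forBelow_iff, Bool.and_eq_true, Bool.or_eq_true, Bool.not_eq_true',
    Bool.eq_false_iff, ne_eq] at hok
  refine z3B_iff.1 ?_
  rw [v_mul]
  exact (hok _ (v_lt t)).1.2.resolve_left (not_not.2 (by rw [← v_ee]; exact commB_iff.2 h))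

theorem sq_of_four {t : Tm} (h : t * t * (t * t) = 1) : InZ3 (t * t) := by
  have hok := square_ok
  simp only [squareOK, forBelow_iff, Bool.and_eq_true, Bool.or_eq_true, Bool.not_eq_true',
    ne_eq, Bool.eq_false_iff, beq_iff_eq] at hok
  refine z3B_iff.1 ?_
  rw [v_mul]
  refine (hok _ (v_lt t)).2.resolve_left (not_not.2 ?_)
  rw [← v_mul, ← v_mul, h, v_one]

theorem involution_kernel {u : Tm} (hu : u * u = 1) (hpsi : psi u = 1) {r : Tm}
    (hr : u * r = r * u) (hr2 : r * r ≠ 1) : InZ3 u := by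
  have hok := square_ok
  simp only [squareOK, forBelow_iff, Bool.and_eq_true, Bool.or_eq_true, Bool.not_eq_true',
    Bool.eq_false_iff, ne_eq, beq_iff_eq, not_and_or] at hok
  rcases (hok _ (v_lt u)).1.1 with ((h | h) | h) | h
  · exact absurd (by rw [← v_mul, hu, v_one]) h
  · exfalso
    refine h ?_
    have := psi_eq_one.1 hpsi
    rw [← commB_iff, v_ee] at this
    have hp := psi_ok
    simp only [psiOK, Bool.and_eq_true, forBelow_iff, beq_iff_eq] at hp
    rw [← (hp _ (v_lt u)).2]
    exact this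
  · exact z3B_iff.1 h
  · rcases h _ (v_lt r) with h' | h'
    · exact absurd (commB_iff.2 hr) h'
    · exact absurd (v_inj (by rw [v_mul, h', v_one])) hr2

end CfsgLib.J2SylShape96
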