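import Cfsg.Agent.J2SylShape96.Labels

/-!
The involutions outside the extraspecial subgroup of the model, the two elementary abelian subgroups
of order sixteen, and a linear algebra fact about the quotient of one of them.
-/

set_option autoImplicit false
set_option maxRecDepth 100000

namespace CfsgLib.J2SylShape96

/-- code test for the first elementary abelian subgroup -/
def a1B (t : ℕ) : Bool := z3B (t &&& 31)

/-- code test for the second -/
def a2B (t : ℕ) : Bool := a1B (tconj 9 t)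

/-- squares and classes of the elements outside -/
def outsideOK : Bool :=
  forBelow (fun t => decide (t < 32) || !(nzB (tmul t t)) || (tmul t t == 0 &&
    someBelow (fun s => tconj s t == 32 * (t >>> 5) || tconj s t == tmul (32 * (t >>> 5)) 16) 128 &&
    (forBelow (fun y => commB t y == a1B y) 128 || forBelow (fun y => commB t y == a2B y) 128))) 128

theorem outside_ok : outsideOK = true := by decide +kernel

theorem outside_facts {t : Tm} (ht : t ∉ Qm) (h2 : t * t = 1 ∨ t * t = zm) :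
    t * t = 1 ∧
      (∃ s, s * t * s⁻¹ = el (32 * (v t >>> 5)) ∨ s * t * s⁻¹ = el (32 * (v t >>> 5)) * zm) ∧
      ((∀ y, t * y = y * t ↔ a1B (v y) = true) ∨ (∀ y, t * y = y * t ↔ a2B (v y) = true)) := by
  have h := outside_ok
  simp only [outsideOK, forBelow_iff, someBelow_iff, Bool.and_eq_true, Bool.or_eq_true,
    decide_eq_true_eq, Bool.not_eq_true', Bool.eq_false_iff, ne_eq, beq_iff_eq] at h
  obtain ⟨⟨hsq, s, hs, hconj⟩, hc⟩ := (h _ (v_lt t)).resolve_left (not_or.2 ⟨ht, not_not.2 (by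
    rw [← v_mul]; exact nzB_iff.2 h2)⟩)
  have hlt : 32 * (v t >>> 5) < 128 := by have := shift_lt t; omega
  refine ⟨v_inj (by rw [v_mul, hsq, v_one]), ⟨el s, ?_⟩, ?_⟩
  · exact hconj.imp (fun e => v_inj (by rw [v_conj, v_el hs, e, v_el hlt]))
      (fun e => v_inj (by rw [v_conj, v_el hs, e, v_mul_zm, v_el hlt]))
  · exact hc.imp (fun e y => by rw [← commB_iff, e _ (v_lt y)])
      (fun e y => by rw [← commB_iff, e _ (v_lt y)])

/-- closure and basic properties of the elementary abelian subgroup -/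
def a1OK : Bool :=
  forBelow (fun a => !(a1B a) || (a1B (tinv a) && tmul a a == 0 && psiB a &&
    forBelow (fun b => !(a1B b) || a1B (tmul a b)) 128)) 128

theorem a1_ok : a1OK = true := by decide +kernel

theorem a1_spec {a : ℕ} (ha : a < 128) (h : a1B a = true) :
    a1B (tinv a) = true ∧ tmul a a = 0 ∧ psiB a = true ∧
      ∀ b < 128, a1B b = true → a1B (tmul a b) = true := by
  have h' := a1_ok
  simp only [a1OK, forBelow_iff, Bool.or_eq_true, Bool.not_eq_true', Bool.and_eq_true,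
    Bool.eq_false_iff, ne_eq, beq_iff_eq] at h'
  obtain ⟨⟨⟨x, y⟩, z⟩, w⟩ := (h' a ha).resolve_left (not_not.2 h)
  exact ⟨x, y, z, fun b hb hb' => (w b hb).resolve_left (not_not.2 hb')⟩

/-- The elementary abelian subgroup `C(x₀)` of order sixteen. -/
def A1 : Subgroup Tm where
  carrier := {t | a1B (v t) = true}
  one_mem' := by show a1B (v 1) = true; rw [v_one]; rfl
  mul_mem' := fun {a b} ha hb => by
    show a1B (v (a * b)) = true
    rw [v_mul]; exact (a1_spec (v_lt a) ha).2.2.2 _ (v_lt b) hb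
  inv_mem' := fun {a} ha => by
    show a1B (v a⁻¹) = true
    rw [v_inv]; exact (a1_spec (v_lt a) ha).1

/-- The second one. -/
def A2 : Subgroup Tm := A1.comap (MulAut.conj qq).toMonoidHom

theorem mem_A1 {t : Tm} : t ∈ A1 ↔ a1B (v t) = true := Iff.rfl

theorem mem_A2 {t : Tm} : t ∈ A2 ↔ a2B (v t) = true := by
  show qq * t * qq⁻¹ ∈ A1 ↔ _
  rw [mem_A1, v_conj, v_qq]; rfl

theorem A1_sq {a : Tm} (ha : a ∈ A1) : a * a = 1 :=
  v_inj (by rw [v_mul, (a1_spec (v_lt a) ha).2.1, v_one])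

theorem A1_psi {a : Tm} (ha : a ∈ A1) : psi a = 1 := by
  show (bif psiB (v a) then (1 : Multiplicative (ZMod 2)) else Multiplicative.ofAdd 1) = 1
  rw [(a1_spec (v_lt a) ha).2.2.1]; rfl

/-- the distinguished outside involution -/
def x0 : Tm := el 32

theorem A1_facts :
    x0 ∈ A1 ∧ ee ∈ A1 ∧ zm ∈ A1 ∧ qq * x0 * qq⁻¹ ∉ A1 ∧ x0 ∉ Qm ∧ x0 * x0 = 1 := by
  refine ⟨?_, ?_, ?_, ?_, ?_, ?_⟩
  all_goals
    simp only [mem_A1, mem_Qm, v_conj, v_qq, v_ee, v_zm, x0, v_el (show 32 < 128 by norm_num)]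
    decide +kernel

theorem card_A1 : Nat.card A1 = 16 := by
  let c : Fin 16 → ℕ := fun i =>
    32 * ((i : ℕ) / 4) + [0, 5, 16, 21].getD ((i : ℕ) % 4) 0
  have hc : ∀ i, c i < 128 ∧ a1B (c i) = true := by decide +kernel
  have hinj : ∀ i j, c i = c j → i = j := by decide +kernel
  have hsurj : ∀ t : Fin 128, a1B t = true → ∃ i, c i = t := by decide +kernel
  rw [← Nat.card_fin 16]
  refine (Nat.card_congr (Equiv.ofBijective
    (fun i => (⟨el (c i), by rw [mem_A1, v_el (hc i).1]; exact (hc i).2⟩ : A1)) ⟨?_, ?_⟩)).symm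
  · intro i j h
    refine hinj i j ?_
    have := congrArg (fun x : A1 => v x.1) h
    simpa [v_el (hc i).1, v_el (hc j).1] using this
  · rintro ⟨t, ht⟩
    obtain ⟨i, hi⟩ := hsurj ⟨v t, v_lt t⟩ ht
    exact ⟨i, Subtype.ext (v_inj (by rw [v_el (hc i).1]; exact hi))⟩

/-- twelve involutions and identity at most inside -/
def smallOK : Bool :=
  decide (((List.range 32).filter fun t => tmul t t == 0).length < 16)

theorem small_ok : smallOK = true := by decide +kernel

theorem elementary_sixteen {M : Subgroup Tm} (hM : Nat.card M = 16) (h2 : ∀ x ∈ M, x * x = 1) :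
    M = A1 ∨ M = A2 := by
  by_cases hQ : M ≤ Qm
  · exfalso
    have h := small_ok
    simp only [smallOK, decide_eq_true_eq] at h
    set L := (List.range 32).filter fun t => tmul t t == 0
    have hmem : ∀ y : M, v y.1 ∈ L := fun y => by
      simp only [L, List.mem_filter, List.mem_range, beq_iff_eq]
      exact ⟨hQ y.2, by rw [← v_mul, h2 _ y.2, v_one]⟩
    have hle : Nat.card M ≤ L.toFinset.card := by
      rw [← Nat.card_eq_finsetCard]
      exact Nat.card_le_card_of_injective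
        (fun y : M => (⟨v y.1, List.mem_toFinset.2 (hmem y)⟩ : {a // a ∈ L.toFinset}))
        fun a b e => Subtype.ext (v_inj (congrArg Subtype.val e))
    have := L.toFinset_card_le
    omega
  · obtain ⟨x, hx, hxQ⟩ := SetLike.not_le_iff_exists.1 hQ
    have hcomm : ∀ y ∈ M, x * y = y * x := by
      intro y hy
      have h3 := h2 _ (mul_mem hx hy)
      rw [← inv_eq_iff_mul_eq_one, mul_inv_rev, inv_eq_of_mul_eq_one_right (h2 _ hx),
        inv_eq_of_mul_eq_one_right (h2 _ hy)] at h3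
      exact h3.symm
    have key : ∀ N : Subgroup Tm, Nat.card N = 16 → (∀ y, x * y = y * x → y ∈ N) → M = N :=
      fun N hN hNx => Subgroup.eq_of_le_of_card_ge (fun y hy => hNx y (hcomm y hy)) (by rw [hM, hN])
    rcases (outside_facts hxQ (Or.inl (h2 x hx))).2.2 with hc | hc
    · exact Or.inl (key A1 card_A1 fun y hy => (hc y).1 hy)
    · refine Or.inr (key A2 ?_ fun y hy => mem_A2.2 ((hc y).1 hy))
      rw [← card_A1]
      exact Nat.card_congr ((MulAut.conj qq).toEquiv.subtypeEquiv fun _ => Iff.rfl)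

/-! ### Coordinates on the quotient by `zm` -/

/-- coordinate code -/
def codN (t : ℕ) : ℕ := (2 * (t >>> 5) + if t &&& 15 == 5 then 1 else 0) % 8

/-- coordinate -/
def cod (t : Tm) : Fin 8 := ⟨codN (v t), Nat.mod_lt _ (by norm_num)⟩

/-- representative of a coordinate -/
def repN (i : ℕ) : ℕ := 32 * (i / 2) + 5 * (i % 2)

/-- the four actions -/
def fN (b i : ℕ) : ℕ :=
  ([[0, 1, 2, 3, 4, 5, 6, 7], [0, 1, 2, 3, 5, 4, 7, 6], [0, 1, 3, 2, 5, 4, 6, 7],
    [0, 1, 3, 2, 4, 5, 7, 6]].getD b []).getD i 0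

/-- the coordinates are additive, and the action of the centralizer of `ee` -/
def coordOK : Bool :=
  forBelow (fun a => !(a1B a) || forBelow (fun b => !(a1B b) ||
      ((codN (tmul a b) == codN a ^^^ codN b) &&
        (!(codN a == codN b) || a == b || a == tmul b 16))) 128) 128 &&
  forBelow (fun i => a1B (repN i) && codN (repN i) == i) 8 &&
  forBelow (fun t => !(psiB t) || (forBelow (fun a => !(a1B a) || a1B (tconj t a)) 128 &&
      someBelow (fun b => forBelow (fun a => !(a1B a) ||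
        codN (tconj t a) == fN b (codN a)) 128) 4)) 128 &&
  forBelow (fun b => psiB b && forBelow (fun a => !(a1B a) ||
    codN (tconj b a) == fN b (codN a)) 128) 4

theorem coord_ok : coordOK = true := by decide +kernel

theorem cod_mul {a b : Tm} (ha : a ∈ A1) (hb : b ∈ A1) :
    ((cod (a * b) : Fin 8) : ℕ) = (cod a : ℕ) ^^^ (cod b : ℕ) := by
  have h := coord_ok
  simp only [coordOK, forBelow_iff, Bool.and_eq_true, Bool.or_eq_true, Bool.not_eq_true',
    Bool.eq_false_iff, ne_eq, beq_iff_eq] at h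
  show codN (v (a * b)) = _
  rw [v_mul]
  exact (((h.1.1.1 _ (v_lt a)).resolve_left (not_not.2 ha) _ (v_lt b)).resolve_left
    (not_not.2 hb)).1

theorem cod_eq {a b : Tm} (ha : a ∈ A1) (hb : b ∈ A1) (h : cod a = cod b) :
    a = b ∨ a = b * zm := by
  have hok := coord_ok
  simp only [coordOK, forBelow_iff, Bool.and_eq_true, Bool.or_eq_true, Bool.not_eq_true',
    Bool.eq_false_iff, ne_eq, beq_iff_eq] at hok
  rcases (((hok.1.1.1 _ (v_lt a)).resolve_left (not_not.2 ha) _ (v_lt b)).resolve_left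
    (not_not.2 hb)).2 with (he | he) | he
  · exact absurd (congrArg Fin.val h) he
  · exact Or.inl (v_inj he)
  · exact Or.inr (v_inj (by rw [v_mul_zm]; exact he))

theorem cod_rep (i : Fin 8) : el (repN i) ∈ A1 ∧ cod (el (repN i)) = i := by
  have h := coord_ok
  simp only [coordOK, forBelow_iff, Bool.and_eq_true, beq_iff_eq] at h
  have hlt : repN i < 128 := by have := i.2; simp only [repN]; omega
  refine ⟨?_, Fin.ext ?_⟩
  · rw [mem_A1, v_el hlt]; exact (h.1.1.2 i i.2).1
  · show codN (v _) = _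
    rw [v_el hlt]; exact (h.1.1.2 i i.2).2

theorem cod_ee_x0 : cod ee = 1 ∧ cod x0 = 2 := by decide +kernel

theorem fN_lt : ∀ b : Fin 4, ∀ i : Fin 8, fN b i < 8 ∧ fN b (fN b i) = i := by decide +kernel

/-- the four actions as permutations -/
def fP (b : Fin 4) : Equiv.Perm (Fin 8) :=
  Function.Involutive.toPerm (fun i => ⟨fN b i, (fN_lt b i).1⟩)
    fun i => Fin.ext (fN_lt b i).2

theorem fP_mul_self (b : Fin 4) : fP b * fP b = 1 :=
  Equiv.ext fun i => Fin.ext (fN_lt b i).2

theorem ker_normalizes {w a : Tm} (hw : psi w = 1) (ha : a ∈ A1) : w * a * w⁻¹ ∈ A1 := by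
  have h := coord_ok
  simp only [coordOK, forBelow_iff, Bool.and_eq_true, Bool.or_eq_true, Bool.not_eq_true',
    Bool.eq_false_iff, ne_eq] at h
  rw [mem_A1, v_conj]
  have hw' : psiB (v w) = true := by
    revert hw
    show (bif psiB (v w) then (1 : Multiplicative (ZMod 2)) else Multiplicative.ofAdd 1) = 1 → _
    cases psiB (v w) <;> simp
  exact (((h.1.2 _ (v_lt w)).resolve_left (not_not.2 hw')).1 _ (v_lt a)).resolve_left
    (not_not.2 ha)

theorem ker_action {w : Tm} (hw : psi w = 1) :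
    ∃ b : Fin 4, ∀ a ∈ A1, cod (w * a * w⁻¹) = fP b (cod a) := by
  have h := coord_ok
  simp only [coordOK, forBelow_iff, someBelow_iff, Bool.and_eq_true, Bool.or_eq_true,
    Bool.not_eq_true', Bool.eq_false_iff, ne_eq, beq_iff_eq] at h
  have hw' : psiB (v w) = true := by
    revert hw
    show (bif psiB (v w) then (1 : Multiplicative (ZMod 2)) else Multiplicative.ofAdd 1) = 1 → _
    cases psiB (v w) <;> simp
  obtain ⟨-, b, hb, hact⟩ := (h.1.2 _ (v_lt w)).resolve_left (not_not.2 hw')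
  refine ⟨⟨b, hb⟩, fun a ha => Fin.ext ?_⟩
  show codN (v _) = _
  rw [v_conj]
  exact (hact _ (v_lt a)).resolve_left (not_not.2 ha)

theorem action_realised (b : Fin 4) :
    psi (el b) = 1 ∧ ∀ a ∈ A1, cod (el b * a * (el b)⁻¹) = fP b (cod a) := by
  have h := coord_ok
  simp only [coordOK, forBelow_iff, Bool.and_eq_true, Bool.or_eq_true, Bool.not_eq_true',
    Bool.eq_false_iff, ne_eq, beq_iff_eq] at h
  have hlt : (b : ℕ) < 128 := by have := b.2; omega
  refine ⟨?_, fun a ha => Fin.ext ?_⟩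
  · show (bif psiB (v (el b)) then (1 : Multiplicative (ZMod 2)) else Multiplicative.ofAdd 1) = 1
    rw [v_el hlt, (h.2 b b.2).1]; rfl
  · show codN (v _) = _
    rw [v_conj, v_el hlt]
    exact ((h.2 b b.2).2 _ (v_lt a)).resolve_left (not_not.2 ha)

/-- a linear map from the images of a basis -/
def linN (a b c i : ℕ) : ℕ :=
  (if i &&& 1 == 0 then 0 else a) ^^^ (if i &&& 2 == 0 then 0 else b) ^^^
    (if i &&& 4 == 0 then 0 else c)

/-- its inverse, by search -/
def linInv (a b c j : ℕ) : ℕ :=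
  ((List.range 8).find? fun i => linN a b c i == j).getD 0

/-- the word used in the linear algebra fact -/
def wordN (a b c u w i : ℕ) : ℕ := fN u (linN a b c (fN w (linInv a b c i)))

/-- every invertible linear map moving the first basis vector gives an element of order four -/
def linearOK : Bool :=
  forBelow (fun a => forBelow (fun b => forBelow (fun c =>
    !(forBelow (fun i => forBelow (fun j => !(linN a b c i == linN a b c j) || i == j) 8) 8) ||
      a == 1 ||
      (forBelow (fun i => linInv a b c (linN a b c i) == i) 8 &&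
        someBelow (fun u => someBelow (fun w =>
          someBelow (fun i => !(wordN a b c u w (wordN a b c u w i) == i)) 8 &&
            forBelow (fun i => wordN a b c u w (wordN a b c u w (wordN a b c u w
              (wordN a b c u w i))) == i) 8) 4) 4)) 8) 8) 8

theorem linear_ok : linearOK = true := by decide +kernel

theorem xor_basis : ∀ i : Fin 8, (i : ℕ) =
    (if (i : ℕ) &&& 1 == 0 then 0 else 1) ^^^ (if (i : ℕ) &&& 2 == 0 then 0 else 2) ^^^
      (if (i : ℕ) &&& 4 == 0 then 0 else 4) := by decide +kernel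

theorem exists_order_four (σ : Equiv.Perm (Fin 8))
    (hlin : ∀ i j k : Fin 8, (k : ℕ) = (i : ℕ) ^^^ (j : ℕ) →
      ((σ k : Fin 8) : ℕ) = (σ i : ℕ) ^^^ (σ j : ℕ))
    (h1 : σ 1 ≠ 1) :
    ∃ u w : Fin 4, let y := fP u * σ * fP w * σ⁻¹; y * y ≠ 1 ∧ y * y * (y * y) = 1 := by
  have hz : ((σ 0 : Fin 8) : ℕ) = 0 := by rw [hlin 0 0 0 rfl, Nat.xor_self]
  set a := ((σ 1 : Fin 8) : ℕ) with ha
  set b := ((σ 2 : Fin 8) : ℕ) with hb
  set c := ((σ 4 : Fin 8) : ℕ) with hc
  have hσ : ∀ i : Fin 8, ((σ i : Fin 8) : ℕ) = linN a b c i := by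
    intro i
    have e : ∀ (bb : Bool) (k : Fin 8), ((σ (if bb then 0 else k) : Fin 8) : ℕ) =
        if bb then 0 else ((σ k : Fin 8) : ℕ) := fun bb k => by cases bb <;> simp [hz]
    have hv : ∀ (bb : Bool) (k : Fin 8), (((if bb then 0 else k) : Fin 8) : ℕ) =
        if bb then 0 else (k : ℕ) := fun bb k => by cases bb <;> simp
    set p := (if ((i : ℕ) &&& 1 == 0 : Bool) then (0 : Fin 8) else 1) with hp
    set q := (if ((i : ℕ) &&& 2 == 0 : Bool) then (0 : Fin 8) else 2) with hq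
    set r := (if ((i : ℕ) &&& 4 == 0 : Bool) then (0 : Fin 8) else 4) with hr
    have hpq : (p : ℕ) ^^^ (q : ℕ) < 8 := Nat.xor_lt_two_pow (n := 3) p.2 q.2
    have hi : (i : ℕ) = ((⟨_, hpq⟩ : Fin 8) : ℕ) ^^^ (r : ℕ) := by
      show (i : ℕ) = (p : ℕ) ^^^ (q : ℕ) ^^^ (r : ℕ)
      rw [hp, hq, hr, hv, hv, hv]
      exact xor_basis i
    rw [hlin _ _ _ hi, hlin p q ⟨_, hpq⟩ rfl, hp, hq, hr, e, e, e, ← ha, ← hb, ← hc]
    rfl
  have h := linear_ok
  simp only [linearOK, forBelow_iff, someBelow_iff, Bool.and_eq_true, Bool.or_eq_true,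
    Bool.not_eq_true', Bool.eq_false_iff, ne_eq, beq_iff_eq] at h
  obtain ⟨hinv, u, hu, w, hw, ⟨i, hi, hmove⟩, hfour⟩ :=
    (h a (σ 1).2 b (σ 2).2 c (σ 4).2).resolve_left (by
      rintro (hc' | hc')
      · refine hc' fun i hi j hj => ?_
        rw [or_iff_not_imp_left, not_not]
        intro he
        rw [← hσ ⟨i, hi⟩, ← hσ ⟨j, hj⟩] at he
        exact congrArg Fin.val (σ.injective (Fin.ext he))
      · exact h1 (Fin.ext hc'))
  have hinvσ : ∀ j : Fin 8, ((σ⁻¹ j : Fin 8) : ℕ) = linInv a b c j := by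
    intro j
    obtain ⟨i, rfl⟩ := σ.surjective j
    rw [hσ i, hinv i i.2]
    simp
  set y := fP ⟨u, hu⟩ * σ * fP ⟨w, hw⟩ * σ⁻¹ with hy
  have hyv : ∀ j : Fin 8, ((y j : Fin 8) : ℕ) = wordN a b c u w j := by
    intro j
    show fN u ((σ (fP ⟨w, hw⟩ (σ⁻¹ j)) : Fin 8) : ℕ) = _
    rw [hσ, show ((fP ⟨w, hw⟩ (σ⁻¹ j) : Fin 8) : ℕ) = fN w ((σ⁻¹ j : Fin 8) : ℕ) from rfl, hinvσ]
    rfl
  refine ⟨⟨u, hu⟩, ⟨w, hw⟩, fun e => hmove ?_, Equiv.ext fun j => Fin.ext ?_⟩
  · have e2 : ((y (y ⟨i, hi⟩) : Fin 8) : ℕ) = i :=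
      congrArg (fun p : Equiv.Perm (Fin 8) => ((p ⟨i, hi⟩ : Fin 8) : ℕ)) e
    rwa [hyv, hyv] at e2
  · show ((y (y (y (y j))) : Fin 8) : ℕ) = (j : ℕ)
    rw [hyv, hyv, hyv, hyv]
    exact hfour j j.2

end CfsgLib.J2SylShape96
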