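import Cfsg.Agent.J2SylShape96.Certs
import Cfsg.Agent.EightType55.Small

/-!
Five labels on the singular elements of the model, and the permutation action of automorphisms of the
extraspecial subgroup on them.
-/

set_option autoImplicit false
set_option maxRecDepth 100000

namespace CfsgLib.J2SylShape96

open CfsgLib.EightType55 (A5 fourV s1 s2 s3 mem_fourV)

/-- representatives of the five singular points -/
def ptN (i : ℕ) : ℕ := [10, 11, 9, 13, 5].getD i 0

/-- label of a code -/
def labN (x : ℕ) : ℕ := [5, 5, 5, 5, 5, 4, 5, 5, 5, 2, 0, 1, 5, 3, 5, 5].getD (x &&& 15) 5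

/-- representatives -/
def pt (i : Fin 5) : Tm := el (ptN i)

/-- label of an element -/
def labF (t : Tm) : Fin 5 := ⟨labN (v t) % 5, Nat.mod_lt _ (by norm_num)⟩

theorem v_pt (i : Fin 5) : v (pt i) = ptN i := v_el (by revert i; decide)

theorem pt_mem (i : Fin 5) : pt i ∈ Qm := by
  rw [mem_Qm, v_pt]; revert i; decide

theorem labF_pt : ∀ i : Fin 5, labF (pt i) = i := by decide +kernel

theorem pt_facts : ∀ i : Fin 5, pt i * pt i = 1 ∧ pt i ≠ 1 ∧ pt i ≠ zm := by decide +kernel

theorem pt_two : pt 2 = qq := by decide +kernel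
theorem pt_four : pt 4 = ee := by decide +kernel

/-- involutions of the extraspecial subgroup, and signs of inner automorphisms -/
def singOK : Bool :=
  forBelow (fun x => (labN (tmul x 16) % 5 == labN x % 5) &&
    (!(tmul x x == 0) || nzB x || x == ptN (labN x % 5) || x == tmul (ptN (labN x % 5)) 16) &&
    (!(tmul x x == 16) || someBelow (fun i => someBelow (fun j => i != j &&
      (tmul (ptN i) (ptN j) == x || tmul (tmul (ptN i) (ptN j)) 16 == x)) 5) 5)) 32

theorem sing_ok : singOK = true := by decide +kernel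

theorem labF_mul_zm {x : Tm} (hx : x ∈ Qm) : labF (x * zm) = labF x := by
  have h := sing_ok
  simp only [singOK, forBelow_iff, Bool.and_eq_true, beq_iff_eq] at h
  refine Fin.ext ?_
  show labN (v (x * zm)) % 5 = labN (v x) % 5
  rw [v_mul_zm]
  exact (h _ hx).1.1

theorem sing_cases {x : Tm} (hx : x ∈ Qm) (h2 : x * x = 1) (h1 : x ≠ 1) (hz : x ≠ zm) :
    x = pt (labF x) ∨ x = pt (labF x) * zm := by
  have h := sing_ok
  simp only [singOK, forBelow_iff, Bool.and_eq_true, Bool.or_eq_true, Bool.not_eq_true',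
    beq_iff_eq, beq_eq_false_iff_ne, ne_eq] at h
  rcases (h _ hx).1.2 with ((hc | hc) | hc) | hc
  · exact absurd (by rw [← v_mul, h2, v_one]) hc
  · exact absurd (nzB_iff.1 hc) (not_or.2 ⟨h1, hz⟩)
  · left; exact v_inj (by rw [v_pt]; exact hc)
  · right; exact v_inj (by rw [v_mul_zm, v_pt]; exact hc)

theorem nonsing_cases {x : Tm} (hx : x ∈ Qm) (h2 : x * x = zm) :
    ∃ i j : Fin 5, i ≠ j ∧ (x = pt i * pt j ∨ x = pt i * pt j * zm) := by
  have h := sing_ok
  simp only [singOK, forBelow_iff, Bool.and_eq_true, Bool.or_eq_true, Bool.not_eq_true',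
    beq_iff_eq, beq_eq_false_iff_ne, ne_eq, someBelow_iff, bne_iff_ne] at h
  rcases (h _ hx).2 with hc | ⟨i, hi, j, hj, hij, hc⟩
  · exact absurd (by rw [← v_mul, h2, v_zm]) hc
  · refine ⟨⟨i, hi⟩, ⟨j, hj⟩, fun e => hij (congrArg Fin.val e), ?_⟩
    exact hc.imp (fun e => v_inj (by rw [v_mul, v_pt, v_pt]; exact e.symm))
      (fun e => v_inj (by rw [v_mul_zm, v_mul, v_pt, v_pt]; exact e.symm))

theorem pt_mul_pt : ∀ i j : Fin 5, i ≠ j →
    pt i * pt j * (pt i * pt j) = zm ∨ pt i * pt j * (pt i * pt j) = 1 := by decide +kernel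

/-- the image of a coset in the four-group -/
def hperm (h : ℕ) : A5 := [1, s1, s2, s3].getD h 1

theorem hperm_mem (h : ℕ) : hperm h ∈ fourV := by
  rcases h with _ | _ | _ | _ | h
  exacts [one_mem _, Or.inr (Or.inl rfl), Or.inr (Or.inr (Or.inl rfl)),
    Or.inr (Or.inr (Or.inr rfl)), one_mem _]

theorem fourV_exists {g : A5} (hg : g ∈ fourV) : ∃ h < 4, hperm h = g := by
  rcases mem_fourV.1 hg with rfl | rfl | rfl | rfl
  exacts [⟨0, by norm_num, rfl⟩, ⟨1, by norm_num, rfl⟩, ⟨2, by norm_num, rfl⟩,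
    ⟨3, by norm_num, rfl⟩]

/-- the permutations of the four cosets as lists -/
def hpN (h i : ℕ) : ℕ :=
  ([[0, 1, 2, 3, 4], [1, 0, 3, 2, 4], [2, 3, 0, 1, 4], [3, 2, 1, 0, 4]].getD h []).getD i 0

theorem hperm_apply : ∀ h : Fin 4, ∀ i : Fin 5,
    (((hperm h).1 i : Fin 5) : ℕ) = hpN h i := by decide +kernel

theorem hperm_inj : ∀ h k : Fin 4, hperm h = hperm k → h = k := by decide +kernel

/-- the action on labels -/
def labelOK : Bool :=
  forBelow (fun t => forBelow (fun i => labN (tconj t (ptN i)) % 5 == hpN (t >>> 5) i) 5) 128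

theorem label_ok : labelOK = true := by decide +kernel

theorem shift_lt (t : Tm) : v t >>> 5 < 4 := by
  rw [Nat.shiftRight_eq_div_pow]
  have := v_lt t
  omega

theorem lab_conj (t : Tm) (i : Fin 5) :
    labF (t * pt i * t⁻¹) = (hperm (v t >>> 5)).1 i := by
  have h := label_ok
  simp only [labelOK, forBelow_iff, beq_iff_eq] at h
  refine Fin.ext ?_
  show labN (v (t * pt i * t⁻¹)) % 5 = _
  rw [v_conj, v_pt, h _ (v_lt t) i i.2]
  exact (hperm_apply ⟨_, shift_lt t⟩ i).symm

theorem mem_Qm_iff_shift {t : Tm} : t ∈ Qm ↔ v t >>> 5 = 0 := by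
  rw [mem_Qm, Nat.shiftRight_eq_div_pow]
  have := v_lt t
  omega

theorem hperm_eq_one_iff {t : Tm} : hperm (v t >>> 5) = 1 ↔ t ∈ Qm := by
  rw [mem_Qm_iff_shift]
  refine ⟨fun h => ?_, fun h => by rw [h]; rfl⟩
  have := hperm_inj ⟨_, shift_lt t⟩ 0 h
  exact congrArg Fin.val this

/-! ### Automorphisms of the extraspecial subgroup -/

/-- `zm` in the subgroup -/
def qz : Qm := ⟨zm, zm_mem_Qm⟩

/-- the representatives in the subgroup -/
def qpt (i : Fin 5) : Qm := ⟨pt i, pt_mem i⟩

theorem center_Qm {x : Qm} (hx : ∀ y, x * y = y * x) : x = 1 ∨ x = qz :=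
  (centralizer_low fun s hs => congrArg Subtype.val (hx ⟨s, hs⟩)).imp Subtype.ext Subtype.ext

theorem aut_qz (σ : MulAut Qm) : σ qz = qz := by
  refine (center_Qm fun y => ?_).resolve_left ?_
  · obtain ⟨w, rfl⟩ := σ.surjective y
    rw [← map_mul, ← map_mul, show qz * w = w * qz from Subtype.ext (zm_comm w)]
  · rw [map_eq_one_iff σ σ.injective]
    exact fun h => const_facts.2.2.2.2.2.2.2.2.2.1 (congrArg Subtype.val h)

/-- label of an element of the subgroup -/
def labQ (x : Qm) : Fin 5 := labF x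

theorem aut_qpt (σ : MulAut Qm) (i : Fin 5) :
    σ (qpt i) = qpt (labQ (σ (qpt i))) ∨ σ (qpt i) = qpt (labQ (σ (qpt i))) * qz := by
  obtain ⟨h2, h1, hz⟩ := pt_facts i
  have e : σ (qpt i) * σ (qpt i) = 1 := by
    rw [← map_mul, show qpt i * qpt i = 1 from Subtype.ext h2, map_one]
  refine (sing_cases (σ (qpt i)).2 (congrArg Subtype.val e) ?_ ?_).imp Subtype.ext Subtype.ext
  · intro he
    exact h1 (congrArg Subtype.val (σ.injective ((Subtype.ext he).trans (map_one σ).symm)))
  · intro he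
    exact hz (congrArg Subtype.val
      (σ.injective ((Subtype.ext he : σ (qpt i) = qz).trans (aut_qz σ).symm)))

/-- the map of labels -/
def labMap (σ : MulAut Qm) (i : Fin 5) : Fin 5 := labQ (σ (qpt i))

theorem labMap_mul (σ τ : MulAut Qm) (i : Fin 5) :
    labMap (σ * τ) i = labMap σ (labMap τ i) := by
  show labQ (σ (τ (qpt i))) = labQ (σ (qpt (labQ (τ (qpt i)))))
  rcases aut_qpt τ i with h | h
  · rw [← h]
  · conv_lhs => rw [h, map_mul, aut_qz]
    exact labF_mul_zm (σ _).2

theorem labMap_one (i : Fin 5) : labMap 1 i = i := labF_pt i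

/-- The action of automorphisms on the five labels. -/
def labHom : MulAut Qm →* Equiv.Perm (Fin 5) where
  toFun σ :=
    { toFun := labMap σ
      invFun := labMap σ⁻¹
      left_inv := fun i => by rw [← labMap_mul, inv_mul_cancel, labMap_one]
      right_inv := fun i => by rw [← labMap_mul, mul_inv_cancel, labMap_one] }
  map_one' := Equiv.ext labMap_one
  map_mul' σ τ := Equiv.ext (labMap_mul σ τ)

theorem labHom_apply (σ : MulAut Qm) (i : Fin 5) : labHom σ i = labQ (σ (qpt i)) := rfl

/-! ### The kernel consists of inner automorphisms -/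

/-- signed products of the first four representatives -/
def prodN (k : ℕ) : ℕ :=
  tmul (tmul (tmul (tmul (if k &&& 1 == 0 then 0 else ptN 0) (if k &&& 2 == 0 then 0 else ptN 1))
    (if k &&& 4 == 0 then 0 else ptN 2)) (if k &&& 8 == 0 then 0 else ptN 3))
    (if k &&& 16 == 0 then 0 else 16)

/-- generation, and every choice of four signs comes from conjugation -/
def innerOK : Bool :=
  forBelow (fun x => someBelow (fun k => prodN k == x) 32) 32 &&
    forBelow (fun s => someBelow (fun c => forBelow (fun i =>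
      tconj c (ptN i) == (if (s >>> i) &&& 1 == 0 then ptN i else tmul (ptN i) 16)) 4) 32) 16

theorem inner_ok : innerOK = true := by decide +kernel

/-- one factor -/
noncomputable def pick (b : Bool) (x : Qm) : Qm := if b then 1 else x

theorem v_pick (b : Bool) (x : Qm) : v ((pick b x : Qm) : Tm) = if b then 0 else v x.1 := by
  cases b <;> simp [pick, v_one]

theorem exists_decomp (x : Qm) : ∃ a b c d f : Bool,
    x = pick a (qpt 0) * pick b (qpt 1) * pick c (qpt 2) * pick d (qpt 3) * pick f qz := by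
  have h := inner_ok
  simp only [innerOK, Bool.and_eq_true, forBelow_iff, someBelow_iff, beq_iff_eq] at h
  obtain ⟨k, -, hk⟩ := h.1 _ x.2
  refine ⟨k &&& 1 == 0, k &&& 2 == 0, k &&& 4 == 0, k &&& 8 == 0, k &&& 16 == 0,
    Subtype.ext (v_inj ?_)⟩
  rw [← hk, prodN]
  simp only [Subgroup.coe_mul, v_mul, v_pick, qpt, qz, v_pt, v_zm, beq_iff_eq]
  rfl

theorem map_pick {M : Type*} [Group M] (f : Qm →* M) (b : Bool) (x : Qm) :
    f (pick b x) = if b then 1 else f x := by
  cases b <;> simp [pick]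

theorem hom_ext {M : Type*} [Group M] {f g : Qm →* M}
    (h : ∀ i : Fin 5, i ≠ 4 → f (qpt i) = g (qpt i)) (hz : f qz = g qz) : f = g := by
  refine MonoidHom.ext fun x => ?_
  obtain ⟨a, b, c, d, u, rfl⟩ := exists_decomp x
  simp only [map_mul, map_pick, h 0 (by decide), h 1 (by decide), h 2 (by decide), h 3 (by decide), hz]

theorem exists_conj_of_labHom {σ : MulAut Qm} (hσ : labHom σ = 1) :
    ∃ c : Qm, ∀ x : Qm, σ x = c * x * c⁻¹ := by
  classical
  have hval : ∀ i : Fin 5, σ (qpt i) = qpt i ∨ σ (qpt i) = qpt i * qz := by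
    intro i
    have e : labQ (σ (qpt i)) = i := by rw [← labHom_apply, hσ]; rfl
    have := aut_qpt σ i
    rwa [e] at this
  set s : Fin 5 → ℕ := fun i => if σ (qpt i) = qpt i then 0 else 1 with hs
  have hs2 : ∀ i, s i < 2 := fun i => by simp only [hs]; split <;> norm_num
  set k := s 0 + 2 * s 1 + 4 * s 2 + 8 * s 3
  have hbit : ∀ i : Fin 5, i ≠ 4 → (k >>> (i : ℕ)) &&& 1 = s i := by
    intro i hi
    have h0 := hs2 0
    have h1 := hs2 1
    have h2 := hs2 2
    have h3 := hs2 3
    rw [Nat.shiftRight_eq_div_pow, Nat.and_one_is_mod]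
    have h4 : ∀ j : Fin 5, j ≠ 4 → j = 0 ∨ j = 1 ∨ j = 2 ∨ j = 3 := by decide
    rcases h4 i hi with rfl | rfl | rfl | rfl <;> simp [k] <;> omega
  have h := inner_ok
  simp only [innerOK, Bool.and_eq_true, forBelow_iff, someBelow_iff, beq_iff_eq] at h
  obtain ⟨c, hc, hconj⟩ := h.2 k (by
    have := hs2 0; have := hs2 1; have := hs2 2; have := hs2 3; omega)
  set cq : Qm := ⟨el c, by rw [mem_Qm, v_el (by omega)]; exact hc⟩
  refine ⟨cq, fun x => ?_⟩
  refine DFunLike.congr_fun (hom_ext (f := σ.toMonoidHom)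
    (g := (MulAut.conj cq).toMonoidHom) (fun i hi => ?_) ?_) x
  · show σ (qpt i) = cq * qpt i * cq⁻¹
    have hi4 : (i : ℕ) < 4 := by
      have := i.2
      have : (i : ℕ) ≠ 4 := fun e => hi (Fin.ext e)
      omega
    have hc2 := hconj i hi4
    rw [hbit i hi] at hc2
    refine Subtype.ext (v_inj ?_)
    show _ = v (el c * pt i * (el c)⁻¹)
    rw [v_conj, v_el (by omega), v_pt, hc2]
    simp only [hs]
    rcases hval i with e | e
    · rw [if_pos e, e]; simp [qpt, v_pt]
    · have hne : σ (qpt i) ≠ qpt i := by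
        rw [e]
        intro e2
        have e3 : qz = 1 := mul_eq_left.1 e2
        exact const_facts.2.2.2.2.2.2.2.2.2.1 (congrArg Subtype.val e3)
      rw [if_neg hne, e]
      simp [qpt, qz, v_mul, v_pt, v_zm]
  · show σ qz = cq * qz * cq⁻¹
    rw [aut_qz]
    exact Subtype.ext (by
      show zm = el c * zm * (el c)⁻¹
      rw [← zm_comm, mul_inv_cancel_right])

end CfsgLib.J2SylShape96
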