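import Mathlib

/-!
A concrete model of a group of order 128: an extraspecial group of order 32 and minus type extended
by a four-group, with arithmetic on codes below 128.
-/

set_option autoImplicit false
set_option maxRecDepth 100000
set_option linter.style.longLine false

namespace CfsgLib.J2SylShape96

/-- the packed cocycle -/
def maskN : ℕ := 77194961732110414080110066053494044597203049807548498824404578209689151864832

/-- the packed actions -/
def actN : List ℕ := [1459980823972598128486511383358617792788444579872, 1414837779127781834720603409747118332299444428320, 1314316623526294871024212210294631677778936323200, 1136577402404521534115060090124752639752413072000]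

/-- the packed inverses -/
def invN : ℕ := 432748637409382139870409137007135230266047672002182634536926789907341206534682901601632052600249379167034665695183899194920875305644128061898478204465486965784380741458590632737009782539928386595731609881055919651767287593015242126084941130372423068217232844902765987968

/-- product of two codes below 32 -/
def qmul (x y : ℕ) : ℕ :=
  x ^^^ y ^^^ (((maskN >>> (16 * (x &&& 15) + (y &&& 15))) &&& 1) <<< 4)

/-- the four-group acting on codes below 32 -/
def actQ (h y : ℕ) : ℕ := (actN.getD h 0 >>> (5 * y)) &&& 31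

/-- product of two codes -/
def tmul (a b : ℕ) : ℕ :=
  ((((a >>> 5) ^^^ (b >>> 5)) <<< 5) ||| qmul (a &&& 31) (actQ (a >>> 5) (b &&& 31)))

/-- inverse of a code -/
def tinv (a : ℕ) : ℕ := (invN >>> (7 * a)) &&& 127

/-- conjugate of a code -/
def tconj (g x : ℕ) : ℕ := tmul (tmul g x) (tinv g)

/-- all numbers below a bound satisfy a test -/
def forBelow (p : ℕ → Bool) : ℕ → Bool
  | 0 => true
  | n + 1 => p n && forBelow p n

theorem forBelow_iff {p : ℕ → Bool} {n : ℕ} : forBelow p n = true ↔ ∀ i < n, p i = true := by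
  induction n with
  | zero => simp [forBelow]
  | succ n ih =>
    rw [forBelow, Bool.and_eq_true, ih]
    exact ⟨fun h i hi => (Nat.lt_succ_iff_lt_or_eq.1 hi).elim (h.2 i) fun e => e ▸ h.1,
      fun h => ⟨h n (Nat.lt_succ_self n), fun i hi => h i (Nat.lt_succ_of_lt hi)⟩⟩

/-- some number below a bound satisfies a test -/
def someBelow (p : ℕ → Bool) : ℕ → Bool
  | 0 => false
  | n + 1 => p n || someBelow p n

theorem someBelow_iff {p : ℕ → Bool} {n : ℕ} : someBelow p n = true ↔ ∃ i < n, p i = true := by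
  induction n with
  | zero => simp [someBelow]
  | succ n ih =>
    rw [someBelow, Bool.or_eq_true, ih]
    exact ⟨fun h => h.elim (fun h => ⟨n, Nat.lt_succ_self n, h⟩)
        fun ⟨i, hi, hp⟩ => ⟨i, Nat.lt_succ_of_lt hi, hp⟩,
      fun ⟨i, hi, hp⟩ => (Nat.lt_succ_iff_lt_or_eq.1 hi).elim (fun h => Or.inr ⟨i, h, hp⟩)
        fun e => Or.inl (e ▸ hp)⟩

/-- every code is reached from zero by right multiplication by three generators -/
def genCodes : List ℕ := [9, 32, 67]

/-- the codes in breadth-first order -/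
def orderCodes : List ℕ := [0, 9, 32, 67, 41, 74, 61, 102, 73, 99, 52, 127, 64, 106, 29, 123, 125, 70, 105, 26, 104, 37, 20, 98, 116, 95, 96, 19, 113, 60, 4, 94, 91, 93, 43, 76, 5, 47, 3, 58, 72, 62, 40, 13, 87, 66, 84, 50, 85, 28, 54, 10, 51, 81, 55, 49, 36, 71, 68, 126, 65, 24, 14, 38, 11, 108, 31, 12, 34, 15, 35, 80, 39, 124, 82, 27, 30, 8, 110, 45, 78, 77, 119, 88, 1, 7, 63, 18, 117, 6, 21, 59, 22, 42, 89, 46, 101, 75, 2, 23, 17, 103, 57, 114, 100, 56, 97, 112, 44, 79, 92, 90, 48, 107, 109, 33, 120, 121, 53, 86, 69, 83, 25, 111, 122, 16, 118, 115]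

/-- the breadth-first tree -/
def stepCodes : List (ℕ × ℕ) := [(0, 0), (0, 0), (0, 1), (0, 2), (1, 1), (1, 2), (2, 0), (2, 2), (3, 0), (3, 1), (4, 0), (4, 2), (5, 0), (5, 1), (6, 1), (6, 2), (7, 0), (7, 1), (8, 1), (8, 2), (9, 0), (9, 2), (10, 1), (10, 2), (11, 0), (11, 1), (12, 1), (12, 2), (13, 0), (13, 2), (14, 0), (14, 2), (15, 1), (16, 1), (16, 2), (17, 0), (17, 2), (18, 2), (19, 0), (19, 1), (20, 1), (20, 2), (21, 0), (22, 0), (22, 2), (23, 1), (24, 1), (24, 2), (25, 0), (25, 2), (26, 2), (27, 0), (27, 1), (28, 1), (28, 2), (29, 0), (30, 1), (30, 2), (31, 0), (31, 1), (32, 0), (32, 2), (33, 2), (34, 0), (34, 1), (35, 1), (35, 2), (36, 0), (37, 0), (37, 1), (38, 1), (38, 2), (39, 0), (39, 2), (40, 0), (40, 2), (41, 1), (42, 1), (42, 2), (43, 1), (43, 2), (44, 0), (44, 1), (45, 0), (45, 2), (46, 2), (47, 0), (47, 1), (48, 1), (48, 2), (49, 0), (50, 0), (50, 1), (51, 1), (51, 2), (52, 0), (52, 2), (53, 0), (53, 2), (54, 1), (55, 1), (55, 2), (56, 0), (56, 2), (58, 1), (59, 2), (60, 1), (63, 2), (67,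 1), (67, 2), (69, 2), (71, 0), (79, 0), (79, 2), (81, 1), (82, 2), (83, 1), (86, 2), (90, 1), (90, 2), (92, 2), (94, 0), (102, 1), (102, 2), (106, 0), (112, 1), (112, 2), (116, 0)]

/-- the tree is valid and covers all codes -/
def treeOK : Bool :=
  forBelow (fun i => i == 0 ||
      (let s := stepCodes.getD i (0, 0)
       decide (s.1 < i) && decide (s.2 < 3) &&
        tmul (orderCodes.getD s.1 0) (genCodes.getD s.2 0) == orderCodes.getD i 0)) 128 &&
    forBelow (fun c => orderCodes.contains c) 128 && (orderCodes.getD 0 1 == 0) &&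
    (orderCodes.length == 128) && orderCodes.all (fun c => decide (c < 128))

theorem tree_ok : treeOK = true := by decide +kernel

/-- closure, neutral element and inverses -/
def basicOK : Bool :=
  forBelow (fun a => (tmul 0 a == a) && (tmul a 0 == a) && (tmul (tinv a) a == 0) &&
    decide (tinv a < 128) && forBelow (fun b => decide (tmul a b < 128)) 128) 128

theorem basic_ok : basicOK = true := by decide +kernel

/-- associativity against the generators -/
def assocOK : Bool :=
  forBelow (fun a => forBelow (fun b => forBelow (fun k =>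
    tmul (tmul a b) (genCodes.getD k 0) == tmul a (tmul b (genCodes.getD k 0))) 3) 128) 128

theorem assoc_ok : assocOK = true := by decide +kernel

theorem tmul_lt {a b : ℕ} (ha : a < 128) (hb : b < 128) : tmul a b < 128 := by
  have h := basic_ok
  simp only [basicOK, forBelow_iff, Bool.and_eq_true, decide_eq_true_eq] at h
  exact (h a ha).2 b hb

theorem tmul_zero {a : ℕ} (ha : a < 128) : tmul 0 a = a ∧ tmul a 0 = a := by
  have h := basic_ok
  simp only [basicOK, forBelow_iff, Bool.and_eq_true, beq_iff_eq, decide_eq_true_eq] at h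
  exact ⟨(h a ha).1.1.1.1, (h a ha).1.1.1.2⟩

theorem tinv_spec {a : ℕ} (ha : a < 128) : tinv a < 128 ∧ tmul (tinv a) a = 0 := by
  have h := basic_ok
  simp only [basicOK, forBelow_iff, Bool.and_eq_true, beq_iff_eq, decide_eq_true_eq] at h
  exact ⟨(h a ha).1.2, (h a ha).1.1.2⟩

theorem genCodes_lt {k : ℕ} (hk : k < 3) : genCodes.getD k 0 < 128 := by
  revert k; decide +kernel

/-- Induction along the tree. -/
theorem code_induction {P : ℕ → Prop} (h0 : P 0)
    (h1 : ∀ c < 128, ∀ k < 3, P c → P (tmul c (genCodes.getD k 0))) : ∀ c < 128, P c := by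
  have h := tree_ok
  simp only [treeOK, Bool.and_eq_true, forBelow_iff, Bool.or_eq_true, beq_iff_eq, decide_eq_true_eq,
    List.all_eq_true, List.contains_eq_mem] at h
  obtain ⟨⟨⟨⟨hstep, hcov⟩, hz⟩, hlen⟩, hlt⟩ := h
  have hz' : orderCodes.getD 0 0 = 0 := by
    rw [List.getD_eq_getElem _ _ (by omega)] at hz ⊢
    exact hz
  have key : ∀ i, i < 128 → P (orderCodes.getD i 0) := by
    intro i
    induction i using Nat.strong_induction_on with
    | _ i ih =>
      intro hi
      rcases hstep i hi with rfl | ⟨⟨hs, hk⟩, he⟩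
      · rwa [hz']
      · rw [← he]
        refine h1 _ ?_ _ hk (ih _ hs (by omega))
        rw [List.getD_eq_getElem _ _ (by omega)]
        exact hlt _ (List.getElem_mem _)
  intro c hc
  obtain ⟨i, hi, rfl⟩ := List.getElem_of_mem (hcov c hc)
  have := key i (hlen ▸ hi)
  rwa [List.getD_eq_getElem _ _ hi] at this

theorem tmul_assoc {a b c : ℕ} (ha : a < 128) (hb : b < 128) (hc : c < 128) :
    tmul (tmul a b) c = tmul a (tmul b c) := by
  have h := assoc_ok
  simp only [assocOK, forBelow_iff, beq_iff_eq] at h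
  suffices key : ∀ c < 128, ∀ a < 128, ∀ b < 128, tmul (tmul a b) c = tmul a (tmul b c) from
    key c hc a ha b hb
  refine code_induction ?_ ?_
  · intro a ha b hb
    rw [(tmul_zero (tmul_lt ha hb)).2, (tmul_zero hb).2]
  · intro c hc k hk ih a ha b hb
    rw [← h (tmul a b) (tmul_lt ha hb) c hc k hk, ih a ha b hb, h a ha (tmul b c) (tmul_lt hb hc) k hk,
      h b hb c hc k hk]

/-- The group of order 128. -/
structure Tm where
  /-- the code -/
  idx : Fin 128
deriving DecidableEq

instance : Fintype Tm := Fintype.ofEquiv (Fin 128) ⟨Tm.mk, Tm.idx, fun _ => rfl, fun _ => rfl⟩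

/-- the code of an element -/
def v (t : Tm) : ℕ := t.idx.val

theorem v_lt (t : Tm) : v t < 128 := t.idx.isLt

theorem v_inj {s t : Tm} (h : v s = v t) : s = t := by
  cases s; cases t; exact congrArg Tm.mk (Fin.ext h)

/-- the element with a given code -/
def el (n : ℕ) : Tm := ⟨⟨n % 128, Nat.mod_lt _ (by norm_num)⟩⟩

theorem v_el {n : ℕ} (h : n < 128) : v (el n) = n := Nat.mod_eq_of_lt h

theorem el_v (t : Tm) : el (v t) = t := v_inj (v_el (v_lt t))

instance : Mul Tm := ⟨fun s t => el (tmul (v s) (v t))⟩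
instance : One Tm := ⟨el 0⟩
instance : Inv Tm := ⟨fun t => el (tinv (v t))⟩

theorem v_mul (s t : Tm) : v (s * t) = tmul (v s) (v t) := v_el (tmul_lt (v_lt s) (v_lt t))

theorem v_one : v (1 : Tm) = 0 := v_el (by norm_num)

theorem v_inv (t : Tm) : v t⁻¹ = tinv (v t) := v_el (tinv_spec (v_lt t)).1

instance : Group Tm := Group.ofLeftAxioms
  (fun a b c => v_inj (by
    simp only [v_mul, tmul_assoc (v_lt a) (v_lt b) (v_lt c)]))
  (fun a => v_inj (by rw [v_mul, v_one, (tmul_zero (v_lt a)).1]))
  (fun a => v_inj (by rw [v_mul, v_inv, v_one, (tinv_spec (v_lt a)).2]))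

theorem v_conj (g x : Tm) : v (g * x * g⁻¹) = tconj (v g) (v x) := by
  rw [v_mul, v_mul, v_inv, tconj]

theorem el_mul {a b : ℕ} (ha : a < 128) (hb : b < 128) : el a * el b = el (tmul a b) :=
  v_inj (by rw [v_mul, v_el ha, v_el hb, v_el (tmul_lt ha hb)])

theorem card_Tm : Nat.card Tm = 128 := by
  rw [Nat.card_congr (⟨Tm.idx, Tm.mk, fun _ => rfl, fun _ => rfl⟩ : Tm ≃ Fin 128), Nat.card_fin]

end CfsgLib.J2SylShape96
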